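import Mathlib
import Cfsg.Agent.Lib.Feit23.Glue
import Cfsg.Agent.Lib.Leech.Mono
import Cfsg.Agent.Lib.MSub.Base

/-!
# The discriminant is 1, 3, 6 or 26
-/

set_option autoImplicit false

namespace CfsgLib.Feit23

open Matrix Module Cfsg Leech

attribute [-simp] zsmul_eq_mul natCast_zsmul

variable {G : Type*} [Group G]

theorem co0_23 {s : Co0} (hs : orderOf s = 23) :
    ∃ z : leechLattice, ∀ n : ℕ, ¬ 23 ∣ n → sqNorm (z - s ^ n • z).1 = 32 := by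
  have : Fact (Nat.Prime 23) := ⟨by norm_num⟩
  let a : M24 := ⟨Mathieu.alpha, Mathieu.alpha_mem⟩
  have ha : orderOf (permHom a) = 23 := by
    rw [orderOf_injective _ permHom_injective, ← Subgroup.orderOf_coe]
    exact orderOf_eq_prime (by decide +kernel) (by decide +kernel)
  obtain ⟨g, hg⟩ := MSub.conj_zp hs ha (by rw [card_Co0]; norm_num)
  refine ⟨g⁻¹ • Spor.leechU, fun n hn => ?_⟩
  have := Classical.decEq Co0
  obtain ⟨j, hj, e⟩ := Finset.mem_image.1 (mem_zpowers_iff_mem_range_orderOf.1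
    (hg ▸ pow_mem (Subgroup.mem_zpowers _) n))
  rw [conj_pow] at e
  rw [← sqNorm_smul g, smul_sub, smul_inv_smul, smul_smul, smul_smul, ← e, ← map_pow]
  refine (by decide +kernel : ∀ j ∈ Finset.range 23, j ≠ 0 →
    sqNorm (Spor.vecU - perm (Mathieu.alpha ^ j) Spor.vecU) = 32) j (ha ▸ hj) ?_
  rintro rfl
  exact hn (hs ▸ orderOf_dvd_of_pow_eq_one (by simpa using e.symm))

/-- gluing data of rank 2 -/
def gl2 (d t f n a b : ℤ) (hf : 23 * f = n - d * t ^ 2) (ht : ¬ 23 ∣ t) (h : b * n - 23 * a ^ 2 = 1)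
    (h0 : 0 < n) (hn : 2 ∣ n) (hb : 2 ∣ b) : Gl d 1 where
  F := toBilin' !![f, a; a, b]
  A := toBilin' !![n, 23 * a; 23 * a, 23 * b]
  C := !![23 * b, -23 * a; -23 * a, n]
  t := t
  symm y z := by simp [toBilin'_apply]; ring
  hF y z := by simp [toBilin'_apply]; linear_combination y 0 * z 0 * hf
  ht := ht
  nonneg y := nonneg_of_mul_nonneg_right (a := n) (by
    convert add_nonneg (sq_nonneg (n * y 0 + 23 * a * y 1)) (mul_nonneg (by norm_num : (0 : ℤ) ≤ 23)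
      (sq_nonneg (y 1))) using 1
    simp [toBilin'_apply]; linear_combination 23 * y 1 ^ 2 * h) h0
  even y := by
    obtain ⟨n, rfl⟩ := hn
    obtain ⟨b, rfl⟩ := hb
    exact ⟨n * y 0 ^ 2 + 23 * a * y 0 * y 1 + 23 * b * y 1 ^ 2, by simp [toBilin'_apply]; ring⟩
  hC y i := by
    fin_cases i <;> simp [toBilin'_apply]
    · linear_combination -23 * y 0 * h
    · linear_combination -23 * y 1 * h
  hC0 i := by fin_cases i <;> simp

/-- gluing data of rank 6 -/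
def gl6 (d t f : ℤ) (hf : 23 * f = 28 - d * t ^ 2) (ht : ¬ 23 ∣ t) : Gl d 5 where
  F := toBilin' !![f, 1, 0, 0, -1, 0; 1, 2, -1, 0, 0, 0; 0, -1, 2, -1, 0, -1; 0, 0, -1, 2, -1, 0;
    -1, 0, 0, -1, 2, 0; 0, 0, -1, 0, 0, 4]
  A := toBilin' !![28, 23, 0, 0, -23, 0; 23, 46, -23, 0, 0, 0; 0, -23, 46, -23, 0, -23;
    0, 0, -23, 46, -23, 0; -23, 0, 0, -23, 46, 0; 0, 0, -23, 0, 0, 92]
  C := !![322, -207, -92, 46, 184, -23; -207, 134, 60, -29, -118, 15; -92, 60, 28, -12, -52, 7;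
    46, -29, -12, 8, 27, -3; 184, -118, -52, 27, 106, -13; -23, 15, 7, -3, -13, 2]
  t := t
  symm y z := by simp [toBilin'_apply, Fin.sum_univ_six]; ring
  hF y z := by simp [toBilin'_apply, Fin.sum_univ_six]; linear_combination y 0 * z 0 * hf
  ht := ht
  nonneg y := by
    simp [toBilin'_apply, Fin.sum_univ_six]
    nlinarith [sq_nonneg (4 * y 5 - y 2), sq_nonneg (2 * y 4 - y 0 - y 3), sq_nonneg (y 0),
      sq_nonneg (3 * y 3 - y 0 - 2 * y 2), sq_nonneg (13 * y 2 - 4 * y 0 - 12 * y 1),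
      sq_nonneg (14 * y 1 + 9 * y 0)]
  even y := ⟨14 * y 0 ^ 2 + 23 * (y 0 * y 1 - y 0 * y 4 + y 1 ^ 2 - y 1 * y 2 + y 2 ^ 2 - y 2 * y 3 -
    y 2 * y 5 + y 3 ^ 2 - y 3 * y 4 + y 4 ^ 2 + 2 * y 5 ^ 2), by
      simp [toBilin'_apply, Fin.sum_univ_six]; ring⟩
  hC y i := by
    fin_cases i <;> simp [toBilin'_apply, Fin.sum_univ_six, Pi.single_apply] <;> ring
  hC0 := by decide

theorem gl2_leech (S : St G) {t f n a b : ℤ} (hf : 23 * f = n - S.d * t ^ 2) (ht : ¬ 23 ∣ t)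
    (h : b * n - 23 * a ^ 2 = 1) (h0 : 0 < n) (hn : 2 ∣ n) (hb : 2 ∣ b)
    (h2 : ∀ X Y, X ^ 2 + 23 * Y ^ 2 = 2 * n → ¬ n ∣ X - 23 * a * Y) :
    ∃ e : (gl2 S.d t f n a b hf ht h h0 hn hb).N ≃+ leechLattice, (∀ x, sqNorm (e x).1 = 8 * Gl.γ _ x x) ∧
      ∀ x, (gl2 S.d t f n a b hf ht h h0 hn hb).γ x x ≠ 2 := by
  have h3 : ∀ y, (gl2 S.d t f n a b hf ht h h0 hn hb).A y y ≠ 2 := fun y e => by
    simp [gl2, toBilin'_apply] at e
    exact h2 (n * y 0 + 23 * a * y 1) (y 1) (by linear_combination n * e - 23 * y 1 ^ 2 * h) (by simp)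
  have h4 := Gl.no_root _ h3 fun y ⟨z, hz⟩ e => h3 ![b * y 1 + 23 * a * z, -a * y 1 - n * z] (by
    simp [gl2, toBilin'_apply, hz] at e ⊢
    refine mul_left_cancel₀ (a := 23) (by norm_num) ?_
    linear_combination e + 23 * (b * y 1 ^ 2 + 46 * a * y 1 * z + 23 * n * z ^ 2) * h)
  obtain ⟨e, he⟩ := (Gl.eUni _).leech (Gl.finrank_N _) h4
  exact ⟨e, he, h4⟩

theorem no_rep {n a : ℤ} (h : n = 6 ∧ a = 1 ∨ n = 26 ∧ a = 3 ∨ n = 4 ∧ a = 1 ∨ n = 12 ∧ a = 5)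
    (X Y : ℤ) (e : X ^ 2 + 23 * Y ^ 2 = 2 * n) : ¬ n ∣ X - 23 * a * Y := by
  have hn : n ≤ 26 := by omega
  obtain ⟨h1, h2⟩ := abs_le_of_sq_le_sq' (show X ^ 2 ≤ 8 ^ 2 by nlinarith) (by norm_num)
  obtain ⟨h3, h4⟩ := abs_le_of_sq_le_sq' (show Y ^ 2 ≤ 2 ^ 2 by nlinarith) (by norm_num)
  rcases h with ⟨rfl, rfl⟩ | ⟨rfl, rfl⟩ | ⟨rfl, rfl⟩ | ⟨rfl, rfl⟩ <;> interval_cases X <;>
    interval_cases Y <;> omega

namespace St

variable (S : St G)

theorem qr : ∃ t f : ℤ, ¬ 23 ∣ t ∧ 23 * f = 6 - S.d * t ^ 2 := by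
  have h : ∀ (c : ℤ) (t : ZMod 23), t ≠ 0 → (S.d : ZMod 23) * t ^ 2 = c →
      ∃ t f : ℤ, ¬ 23 ∣ t ∧ 23 * f = c - S.d * t ^ 2 := fun c t ht h => by
    obtain ⟨t, rfl⟩ := ZMod.intCast_surjective t
    obtain ⟨f, hf⟩ := (ZMod.intCast_eq_intCast_iff_dvd_sub (S.d * t ^ 2) c 23).1 (by simpa using h)
    exact ⟨t, f, mt (ZMod.intCast_zmod_eq_zero_iff_dvd t 23).2 ht, hf.symm⟩
  obtain ⟨t, ht, e | e⟩ := (by decide +kernel : ∀ r : ZMod 23, r ≠ 0 → ∃ t : ZMod 23, t ≠ 0 ∧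
    (r * t ^ 2 = (6 : ℤ) ∨ r * t ^ 2 = (28 : ℤ))) S.d (mt (ZMod.intCast_zmod_eq_zero_iff_dvd _ 23).1 S.d23)
  · exact h _ t ht e
  · obtain ⟨t, f, ht, hf⟩ := h _ t ht e
    exact absurd (Gl.finrank_N _) (gl6 S.d t f hf ht).eUni.not28

theorem exists_four : ∃ x, ∀ i, i ≠ 0 → S.β (x - S.o x i) (x - S.o x i) = 4 := by
  have : Fact (Nat.Prime 23) := ⟨by norm_num⟩
  obtain ⟨t, f, ht, hf⟩ := S.qr
  obtain ⟨e, he, -⟩ := gl2_leech S (a := 1) (b := 4) hf ht rfl (by norm_num) (by norm_num) (by norm_num)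
    (no_rep (by simp))
  generalize gl2 S.d t f 6 1 4 _ _ _ _ _ _ = g at e he
  let H : Subgroup G :=
    { carrier := {a | ∀ x, S.k (S.ρ a x) = S.k x}
      one_mem' := by simp
      mul_mem' := fun ha hb x => by rw [S.act_mul, ha, hb]
      inv_mem' := fun ha x => by rw [← ha, S.act_inv] }
  let r : Representation ℤ H g.N := (Representation.prod (S.ρ.comp H.subtype)
    (Representation.trivial ℤ H _)).subrepresentation g.N fun a p hp =>
      g.mem_N.2 ((a.2 _).trans (g.mem_N.1 hp))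
  have hr : ∀ a p, (r a p).1 = (S.ρ a p.1.1, p.1.2) := fun _ _ => rfl
  obtain ⟨Φ, hΦ⟩ := exists_co0 r (fun a p => by simp only [g.γ_apply, hr, S.inv]) e he
  obtain ⟨z, hz⟩ := co0_23 (s := Φ ⟨S.σ, S.kσ⟩) (orderOf_eq_prime
    (by rw [← map_pow, ← map_one Φ]; exact congrArg _ (Subtype.ext S.hσ)) fun h => by
      have := hΦ ⟨S.σ, S.kσ⟩ (g.mk' (g.t • S.x0) (Pi.single 0 1) (by simp [S.kx0]))
      rw [h, one_smul, e.injective.eq_iff] at this
      obtain ⟨c, hc⟩ := S.prim (g.t • S.x0) (congrArg (·.1.1) this).symm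
      exact g.ht ⟨c, by simpa [S.kx0, S.kv, mul_comm] using congrArg S.k hc⟩)
  obtain ⟨p, rfl⟩ := e.surjective z
  refine ⟨p.1.1, fun i hi => ?_⟩
  have := hz i.val fun e => hi ((ZMod.val_eq_zero i).1 (Nat.eq_zero_of_dvd_of_lt e i.val_lt))
  rw [← map_pow, hΦ, ← map_sub, he, g.γ_apply] at this
  simp only [AddSubgroupClass.coe_sub, hr, Prod.fst_sub, Prod.snd_sub, sub_self, map_zero] at this
  exact mul_left_cancel₀ (a := 8) (by norm_num) (by simpa [o] using this)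

theorem d_cases : S.d = 1 ∨ S.d = 3 ∨ S.d = 6 ∨ S.d = 26 := by
  obtain ⟨x, hx⟩ := S.exists_four
  have h0 := S.d_pos
  have h2 : S.d ≠ 2 := fun h => by
    have a := S.sum_β x
    rw [Finset.sum_congr rfl (g := fun i => S.β x x - 2 + if i = 0 then 2 else 0) fun i _ => by
      split_ifs with hi
      · simp [hi, o_zero]
      have := hx i hi
      rw [S.norm_sub, o, S.inv, ← o] at this
      omega] at a
    simp [Finset.sum_add_distrib, h] at a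
    have b : ∀ c : ℤ, S.β (x - c • S.v) (x - c • S.v) ≠ 2 := fun c => S.no_root _
    simp only [S.norm_sub, map_smul, LinearMap.smul_apply, smul_eq_mul, S.bv, S.kv, h] at b
    rcases prime23.dvd_or_dvd (show 23 ∣ (S.k x - 1) * (S.k x + 1) from
      ⟨12 * S.β x x - S.k x ^ 2 - 23, by linear_combination -12 * a⟩) with ⟨c, hc⟩ | ⟨c, hc⟩
    · rw [sub_eq_iff_eq_add.1 hc] at a b
      exact b c (by linarith)
    · rw [eq_sub_iff_add_eq.2 hc] at a b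
      exact b c (by linarith)
  have h4 := hx 1 h01.symm
  obtain ⟨g, hg⟩ := S.exists_k_ne (x := x - S.o x 1) fun e => by simp [e] at h4
  rw [← S.inv g] at h4
  generalize S.ρ g _ = y at h4 hg
  have a := S.par y
  have b := (S.key y).resolve_left (by
    rintro ⟨c, rfl⟩
    simp only [map_smul, LinearMap.smul_apply, smul_eq_mul, βv] at h4
    rw [show c * (c * (23 * S.d)) = 23 * (c * c * S.d) by ring] at h4
    omega)
  obtain ⟨t, f, -, hf⟩ := S.qr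
  have c : ∃ t : ZMod 23, (S.d : ZMod 23) * t ^ 2 = 6 := ⟨t, by
    have := congrArg (Int.cast : ℤ → ZMod 23) hf
    push_cast at this
    rwa [show (23 : ZMod 23) = 0 from rfl, zero_mul, eq_comm, sub_eq_zero, eq_comm] at this⟩
  have s2 := S.sqf 2 (by norm_num)
  have s3 := S.sqf 3 (by norm_num)
  rw [h4] at a b
  have h5 := sq_pos_of_ne_zero hg
  have h6 : 2 ∣ S.d ∧ S.d ≤ 48 ∨ S.d ≤ 12 := by
    rcases Int.even_or_odd' (S.k y) with ⟨j, hj | hj⟩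
    · have : j ≠ 0 := by omega
      exact Or.inr (by rw [hj] at b; nlinarith [sq_pos_of_ne_zero this])
    · refine Or.inl ⟨?_, by nlinarith⟩
      rw [hj, show S.d * (2 * j + 1) ^ 2 = S.d + 2 * (S.d * (2 * j * j + 2 * j)) by ring] at a
      omega
  have h7 : S.d ≤ 48 := by omega
  revert c s2 s3 h6 h2
  generalize S.d = d at h0 h7 ⊢
  interval_cases d <;> decide +kernel

end St

end CfsgLib.Feit23
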