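import Mathlib
import Cfsg.Agent.Lib.Feit23.Disc
import Cfsg.Agent.Lib.Feit23.Emb

/-!
# The embedding into the stabiliser of a line of the Leech lattice
-/

set_option autoImplicit false

namespace CfsgLib.Feit23

open Matrix Module Cfsg Leech MulAction

attribute [-simp] zsmul_eq_mul natCast_zsmul

variable {G : Type*} [Group G]

theorem exists_rep {M V : Type*} [AddCommGroup M] [AddCommGroup V] (ψ : M →ₗ[ℤ] V)
    (hψ : Function.Injective ψ) (r : Representation ℤ G V) (h : ∀ g p, ∃ q, ψ q = r g (ψ p)) :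
    ∃ r' : Representation ℤ G M, ∀ g p, ψ (r' g p) = r g (ψ p) := by
  let e := LinearEquiv.ofInjective ψ hψ
  refine ⟨e.symm.conjRingEquiv.toMonoidHom.comp (r.subrepresentation (LinearMap.range ψ)
    (by rintro g _ ⟨p, rfl⟩; exact h g p)), fun g p => ?_⟩
  exact congrArg Subtype.val (e.apply_symm_apply _)

theorem sq_one {n j : ℤ} (hn : n = 6 ∨ n = 26 ∨ n = 4 ∨ n = 12) (h : n ∣ j * j - 1) :
    n ∣ j - 1 ∨ n ∣ j - -1 ∨ n = 12 ∧ ∃ ε i : ℤ, ε ^ 2 = 1 ∧ 5 * j = ε + 12 * i := by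
  obtain ⟨i, q, h8, h9, rfl⟩ : ∃ i q, 0 ≤ i ∧ i < n ∧ j = i + n * q := ⟨_, _, Int.emod_nonneg j (by omega),
    Int.emod_lt_of_pos j (by omega), (Int.emod_add_mul_ediv j n).symm⟩
  rw [show (i + n * q) * (i + n * q) - 1 = i * i - 1 + n * (2 * i * q + n * q * q) by ring,
    dvd_add_left (dvd_mul_right _ _)] at h
  by_cases h5 : n = 12 ∧ i = 5
  · exact Or.inr (Or.inr ⟨h5.1, 1, 2 + 5 * q, rfl, by rw [h5.1, h5.2]; omega⟩)
  by_cases h7 : n = 12 ∧ i = 7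
  · exact Or.inr (Or.inr ⟨h7.1, -1, 3 + 5 * q, rfl, by rw [h7.1, h7.2]; omega⟩)
  refine or_assoc.1 (Or.inl ?_)
  rcases hn with rfl | rfl | rfl | rfl <;> interval_cases i <;> omega

namespace St

variable (S : St G)

theorem gv {m : ℤ} (hm : m = 0 ∨ m = 1 ∧ 3 ∣ S.d ∨ m = 6 ∧ 13 ∣ S.d) (g : G) :
    ∃ (c : ℤ) (z : L), S.ρ g S.v = c • S.v + (2 * (2 * m + 1)) • z := by
  obtain ⟨c, z, hz⟩ := S.rad' (ℓ := 2) (by norm_num) (by norm_num) (x := S.ρ g S.v - S.v) fun y => by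
    obtain ⟨a, ha⟩ := S.par y
    obtain ⟨b, hb⟩ := S.par (S.ρ g⁻¹ y)
    obtain ⟨a', ha'⟩ := Int.even_mul_pred_self (S.k y)
    obtain ⟨b', hb'⟩ := Int.even_mul_pred_self (S.k (S.ρ g⁻¹ y))
    rw [S.inv] at hb
    rw [map_sub, LinearMap.sub_apply, S.adj, S.symm, S.bv, S.symm, S.bv]
    exact ⟨b - a + S.d * (a' - b'), by push_cast; linear_combination hb - ha + S.d * (ha' - hb')⟩
  have h : ∀ ℓ : ℕ, (ℓ : ℤ) ∣ S.d → ∀ y, (ℓ : ℤ) ∣ S.β (S.ρ g S.v) y := fun ℓ h y => by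
    rw [S.adj, S.symm, S.bv]; exact h.mul_left _
  obtain ⟨c', z', hz'⟩ : ∃ (c : ℤ) (z : L), S.ρ g S.v = c • S.v + (2 * m + 1) • z := by
    rcases hm with rfl | ⟨rfl, hm⟩ | ⟨rfl, hm⟩
    · exact ⟨0, S.ρ g S.v, by simp⟩
    · exact S.rad' (ℓ := 3) (by norm_num) (by norm_num) (h 3 hm)
    · exact S.rad' (ℓ := 13) (by norm_num) (by norm_num) (h 13 hm)
  exact ⟨(2 * m + 1) * (c + 1) - 2 * m * c', z - m • z', by
    linear_combination (norm := module) (2 * m + 1) • hz - (2 * m) • hz'⟩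

include S in
theorem embed : (∃ f : G →* Multiplicative (ZMod 2) × Spor.Co2, Function.Injective f) ∨
    ∃ f : G →* Multiplicative (ZMod 2) × Spor.Co3, Function.Injective f := by
  obtain ⟨t, n, a, b, m, hc⟩ : ∃ t n a b m : ℤ, S.d = 6 ∧ t = 1 ∧ n = 6 ∧ a = 1 ∧ b = 4 ∧ m = 1 ∨
      S.d = 26 ∧ t = 1 ∧ n = 26 ∧ a = 3 ∧ b = 8 ∧ m = 6 ∨ S.d = 1 ∧ t = 2 ∧ n = 4 ∧ a = 1 ∧ b = 6 ∧ m = 0 ∨
      S.d = 3 ∧ t = 2 ∧ n = 12 ∧ a = 5 ∧ b = 48 ∧ m = 1 := by
    rcases S.d_cases with h | h | h | h <;> simp [h]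
  obtain ⟨hn, h1, hm⟩ : n = S.d * t ^ 2 ∧ b * n - 23 * a ^ 2 = 1 ∧ t * S.d = 2 * (2 * m + 1) := by
    rcases hc with h | h | h | h <;> simp [h]
  obtain ⟨g, hgt, hgF, e, he, h2⟩ : ∃ g : Gl S.d 1, g.t = t ∧ g.F = toBilin' !![0, a; a, b] ∧
      ∃ e : g.N ≃+ leechLattice, (∀ x, sqNorm (e x).1 = 8 * g.γ x x) ∧ ∀ x, g.γ x x ≠ 2 :=
    ⟨_, rfl, rfl, gl2_leech S (f := 0) (t := t) (n := n) (by rw [hn]; simp) (by omega) h1
      (by omega) (by omega) (by omega) (no_rep (by omega))⟩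
  have hn0 : n ≠ 0 := by omega
  have ht0 : t ≠ 0 := by omega
  obtain ⟨ψ, hψ⟩ : ∃ ψ : g.N →ₗ[ℤ] L × ℤ, ∀ p, ψ p = (n • p.1.1 + p.1.2 1 • (a * t) • S.v, p.1.2 1) :=
    ⟨(LinearMap.prod (n • LinearMap.fst _ _ _ + (LinearMap.proj 1 ∘ₗ LinearMap.snd _ _ _).smulRight
      ((a * t) • S.v)) (LinearMap.proj 1 ∘ₗ LinearMap.snd _ _ _)) ∘ₗ g.N.subtype, fun _ => rfl⟩
  have hk : ∀ p : g.N, S.k p.1.1 = t * p.1.2 0 := hgt ▸ g.k_eq
  have inj : Function.Injective ψ := (injective_iff_map_eq_zero ψ).2 fun p hp => by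
    simp only [hψ, Prod.mk_eq_zero] at hp
    obtain ⟨h3, h4⟩ := hp
    simp only [h4, zero_smul, add_zero, smul_eq_zero, hn0, false_or] at h3
    have h5 := hk p
    simp only [h3, map_zero, zero_eq_mul, ht0, false_or] at h5
    exact Subtype.ext (Prod.ext h3 (funext fun i => by fin_cases i <;> assumption))
  have hγ : ∀ p, n ^ 2 * g.γ p p = S.β (ψ p).1 (ψ p).1 + n * (ψ p).2 ^ 2 := fun p => by
    simp only [hψ, g.γ_apply, S.norm_add, map_smul, LinearMap.smul_apply, smul_eq_mul, S.bv, S.kv, hk]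
    simp [hgF, toBilin'_apply]
    linear_combination n * p.1.2 1 ^ 2 * h1 + (2 * n * a * p.1.2 0 * p.1.2 1 + 23 * a ^ 2 * p.1.2 1 ^ 2) * hn
  have hmk : ∀ x y, t ∣ S.k x → ∃ p, ψ p = (n • x + y • (a * t) • S.v, y) := fun x y ⟨c, hc⟩ =>
    ⟨g.mk' x ![c, y] (hgt ▸ hc), hψ _⟩
  have hev : ∀ x, t ∣ S.k x → 2 ∣ S.β x x := fun x ⟨c, hc'⟩ => by
    have := S.par x
    rw [hc', mul_pow, ← mul_assoc, ← hn] at this
    exact (dvd_add_left (Dvd.dvd.mul_right (by omega) _)).1 this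
  have hL : ∀ s x, t ∣ S.k x → t ∣ S.k (S.ρ s x) := fun s x hx => by
    have h3 := S.par (S.ρ s x)
    have h4 := hev x hx
    obtain ⟨c, h5⟩ := Int.even_mul_pred_self (S.k (S.ρ s x))
    rw [S.inv, show S.k (S.ρ s x) ^ 2 = S.k (S.ρ s x) + 2 * c by linarith] at h3
    rcases hc with h | h | h | h <;> simp only [h] at h3 ⊢ <;> omega
  let P : G → ℤ → Prop := fun s j => ∃ x, t ∣ S.k x ∧ S.ρ s ((a * t) • S.v) = n • x + j • (a * t) • S.v
  have hP : ∀ s j i, P s j → n ∣ j - i → P s i := fun s j i ⟨x, hx, h⟩ ⟨c, hc⟩ =>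
    ⟨x + c • (a * t) • S.v, by
      simpa using dvd_add hx (((dvd_mul_left t a).mul_right _).mul_left c), by
      linear_combination (norm := module) h + hc • (a * t) • S.v⟩
  have ex : ∀ s, ∃ ε : ℤˣ, P s ε := fun s => by
    obtain ⟨c, z, hz⟩ := S.gv (m := m) (by omega) s
    obtain ⟨j, hj⟩ : ∃ j, P s j := ⟨c + S.k z * t * S.d, a • (z - S.k z • S.v), by
      simp only [map_smul, map_sub, smul_eq_mul, S.kv]
      exact (show t ∣ S.k z - S.k z * 23 by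
        rcases hc with h | h | h | h <;> rw [h.2.1] <;> omega).mul_left a, by
      rw [map_smul, hz, ← hm, hn]; module⟩
    obtain ⟨x, hx, h⟩ := id hj
    obtain ⟨c, hx⟩ := hx
    have h3 := S.inv s ((a * t) • S.v) ((a * t) • S.v)
    simp only [h, S.norm_add, map_smul, LinearMap.smul_apply, smul_eq_mul, S.bv, S.kv, hx] at h3
    have h4 : n ∣ j * j - 1 := ⟨b * (j * j - 1) + S.β x x + 2 * j * a * c, mul_left_cancel₀ hn0 (by
      linear_combination -h3 - n * (j * j - 1) * h1 - (2 * n * j * a * c + 23 * a ^ 2 * (j * j - 1)) * hn)⟩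
    obtain h5 | h5 | ⟨h12, ε', i, hε, hi⟩ := sq_one (by omega) h4
    · exact ⟨1, hP s j 1 hj h5⟩
    · exact ⟨-1, hP s j (-1) hj h5⟩
    obtain ⟨hd, ht, ha⟩ : S.d = 3 ∧ t = 2 ∧ a = 5 := by omega
    subst ht ha h12
    exfalso
    obtain ⟨p, hp⟩ := hmk ((5 : ℤ) • x - (4 : ℤ) • S.ρ s S.v + (10 * i) • S.v) ε' (by
      simp only [map_add, map_sub, map_smul, smul_eq_mul, hx, S.kv]; omega)
    have := hγ p
    rw [hp, show _ + _ = (2 : ℤ) • S.ρ s S.v by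
      rw [map_smul] at h
      linear_combination (norm := module) (-5 : ℤ) • h - hi • (10 : ℤ) • S.v] at this
    simp only [map_smul, LinearMap.smul_apply, smul_eq_mul, S.inv, βv, hd, hε] at this
    exact h2 p (by omega)
  choose ε hε using ex
  have uq : ∀ s (i j : ℤˣ), P s i → P s j → i = j := fun s i j ⟨x, ⟨c, hx⟩, h⟩ ⟨x', ⟨c', hx'⟩, h'⟩ => by
    have := congrArg S.k (h.symm.trans h')
    simp only [map_add, map_smul, smul_eq_mul, hx, hx', S.kv] at this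
    rcases Int.units_eq_one_or i with rfl | rfl <;> rcases Int.units_eq_one_or j with rfl | rfl <;>
      rcases hc with h | h | h | h <;> simp [h] at this ⊢ <;> omega
  let ε' : G →* ℤˣ := MonoidHom.mk' ε fun s s' => uq (s * s') _ _ (hε _) (by
    obtain ⟨x, hx, h⟩ := hε s
    obtain ⟨x', hx', h'⟩ := hε s'
    refine ⟨S.ρ s x' + (ε s' : ℤ) • x, ?_, ?_⟩
    · simpa using dvd_add (hL s x' hx') (hx.mul_left _)
    · rw [S.act_mul, h', map_add, map_smul _ (ε s' : ℤ), h, map_smul, Units.val_mul]; module)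
  obtain ⟨r, hr⟩ := exists_rep ψ inj (S.ρ.prod ((algebraMap ℤ (End ℤ ℤ)).toMonoidHom.comp
      ((Units.coeHom ℤ).comp ε'))) fun s p => by
    obtain ⟨x, hx, h⟩ := hε s
    obtain ⟨q, hq⟩ := hmk (S.ρ s p.1.1 + p.1.2 1 • x) (ε s * p.1.2 1)
      (by simpa using dvd_add (hL s _ ⟨_, hk p⟩) (hx.mul_left _))
    refine ⟨q, hq.trans (hψ p ▸ Prod.ext ?_ rfl)⟩
    show _ = S.ρ s (_ + _)
    rw [map_add, map_smul _ (p.1.2 1), h, map_smul]; module
  replace hr : ∀ s p, ψ (r s p) = (S.ρ s (ψ p).1, ε s * (ψ p).2) := hr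
  obtain ⟨Φ, hΦ⟩ := exists_co0 r (fun s p => mul_left_cancel₀ (pow_ne_zero 2 hn0) (by
    rw [hγ, hγ, hr, S.inv, mul_pow, ← Units.val_pow_eq_pow_val, Int.units_sq, Units.val_one, one_mul])) e he
  let u := g.mk' (-(a * t) • S.v) ![-23 * a, n] (by simp [S.kv, hgt]; ring)
  have hu : ψ u = (0, n) :=
    (hψ u).trans (Prod.ext (show n • -(a * t) • S.v + n • (a * t) • S.v = 0 by module) rfl)
  refine embed_co Φ ((injective_iff_map_eq_one Φ).2 fun s hs => S.inj (LinearMap.ext fun x => ?_))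
    S.idx S.hσ (fun h => ?_) (u := e u) (fun z h => ?_) fun s => ?_
  · obtain ⟨p, hp⟩ := hmk (t • x) 0 (by simp)
    have := hr s p
    rw [← e.injective (show e p = e (r s p) by rw [← hΦ s p, hs, one_smul]), hp] at this
    simpa [smul_right_inj, hn0, ht0] using (congrArg Prod.fst this).symm
  · obtain ⟨c, hc⟩ := S.prim S.x0 (by simp [h])
    have := congrArg S.k hc
    rw [map_smul, S.kx0, S.kv, smul_eq_mul] at this
    omega
  · rw [← e.apply_symm_apply z, ← map_zsmul, e.injective.eq_iff] at h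
    have : -23 * a = 2 * (e.symm z).1.2 0 := congrArg (·.1.2 0) h
    omega
  · simp only [hΦ, ← map_neg, e.injective.eq_iff, ← inj.eq_iff, hr, hu]
    rcases Int.units_eq_one_or (ε s) with h | h <;> simp [h, hu]

end St

end CfsgLib.Feit23
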